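import Cfsg.Agent.J4Five21.Quot
import Cfsg.Agent.J4Five49.Facts
import Cfsg.Agent.J4Five98.Ext
import Cfsg.Prelude.Def_TwoFusion
import Mathlib.GroupTheory.SchurZassenhaus

/-!
The local structure at an element of order five, from the analysis of its centraliser modulo the
group it generates.
-/

set_option autoImplicit false

open scoped Pointwise

universe u

namespace CfsgLib.J4Five21

variable {G : Type u} [Group G]

theorem centralizer_zpowers (q : G) :
    Subgroup.centralizer (Subgroup.zpowers q : Set G) = Cq q := by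
  refine le_antisymm (Subgroup.centralizer_le (by simp)) fun x hx => ?_
  rw [Subgroup.mem_centralizer_iff]
  rintro _ ⟨i, rfl⟩
  exact ((mem_Cq.1 hx).zpow_right i).eq.symm

variable [Finite G] {z q : G}

namespace HData

variable (d : HData z q)

include d

/-- What the quotient gives. -/
theorem quotient_facts : Nat.card (XQ q) = 1344 ∧
    (∃ E : Subgroup (XQ q), ∃ _ : E.Normal, Cfsg.IsElementaryAbelian 2 E ∧ Nat.card E = 8 ∧
      Nonempty (XQ q ⧸ E ≃* Matrix.SpecialLinearGroup (Fin 3) (ZMod 2)) ∧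
      ∀ K : Subgroup (XQ q), ¬ E.IsComplement' K) ∧
    ∃ t : G, orderOf t = 2 ∧ ¬ IsConj z t := by
  obtain ⟨E, hEO, hzE, hE8, hEsq, hE⟩ := d.toData.exists_eight
  have hnorm := d.toData.normal_eight hEO hzE hE8 hEsq hE
  have hcard := d.toData.card_eq hEO hzE hE8 hEsq hE
  have hcent := d.toData.centralizer_eight hEO hzE hE8 hEsq hE
  haveI := hnorm
  have hEl : Cfsg.IsElementaryAbelian 2 E :=
    ⟨⟨⟨fun a b => Subtype.ext (J4Type67.comm_of_sq hEsq a.2 b.2)⟩⟩,
      fun a ha => by rw [pow_two, hEsq a ha]⟩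
  refine ⟨hcard, ⟨E, hnorm, hEl, hE8, J4Five98.nonempty_quotient_sl32 E hEl hE8 hcent.le hcard,
    J4Five98.not_isComplement_of_le E hEl hE8 hcard fun y hy hyE => d.toData.small y hy
      (fun h => hyE (h ▸ one_mem _)) fun hc => ?_⟩, ?_⟩
  · obtain ⟨g, hg⟩ := isConj_iff.1 hc
    exact hyE (hg ▸ d.toData.conj_mem hEO hzE hE8 hEsq hE g)
  · obtain ⟨x, -, hx2, hx1, hxn⟩ := d.toData.exists_notConj
    obtain ⟨b, hb, rfl⟩ := exists_lift_sq d.q5 hx2
    refine ⟨b, orderOf_eq_prime (by rw [pow_two]; exact congrArg Subtype.val hb)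
      (fun e => hx1 ?_), fun h => hxn (d.mk_of_isConj h)⟩
    rw [show b = 1 from Subtype.ext e, map_one]

theorem card_Cq : Nat.card (Cq q) = 6720 := by
  rw [Subgroup.card_eq_card_quotient_mul_card_subgroup (Subgroup.zpowers (qC q)),
    card_mk_fibre d.q5, show Nat.card (↥(Cq q) ⧸ Subgroup.zpowers (qC q)) = 1344 from
      d.quotient_facts.1]

theorem not_twentyfive_dvd : ¬ 25 ∣ Nat.card G := by
  intro h
  haveI : Fact (Nat.Prime 5) := ⟨by norm_num⟩
  obtain ⟨P, hP, hqP⟩ := Sylow.exists_subgroup_card_pow_prime_le (p := 5) (n := 1) (m := 2)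
    (by simpa using h) (Subgroup.zpowers q) (by rw [Nat.card_zpowers, d.q5, pow_one]) (by norm_num)
  have hle : P ≤ Cq q := fun x hx => mem_Cq.2 (congrArg Subtype.val
    ((IsPGroup.isMulCommutative_of_card_eq_prime_sq (G := P) hP).is_comm.comm
      ⟨x, hx⟩ ⟨q, hqP (Subgroup.mem_zpowers q)⟩))
  have h2 := Subgroup.card_dvd_of_le hle
  rw [hP, d.card_Cq] at h2
  norm_num at h2

theorem exists_complement : ∃ J : Subgroup G,
    Cfsg.IsInternalDirectProduct (Subgroup.zpowers q) J
      (Subgroup.centralizer (Subgroup.zpowers q : Set G)) ∧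
    ∃ (E : Subgroup ↥J) (_ : E.Normal), Cfsg.IsElementaryAbelian 2 E ∧ Nat.card ↥E = 8 ∧
      Nonempty (↥J ⧸ E ≃* Matrix.SpecialLinearGroup (Fin 3) (ZMod 2)) ∧
      ∀ K : Subgroup ↥J, ¬ E.IsComplement' K := by
  obtain ⟨hcard, ⟨E, hnorm, hEl, hE8, ⟨φ⟩, hns⟩, -⟩ := d.quotient_facts
  have hcop : Nat.Coprime (Nat.card (Subgroup.zpowers (qC q)))
      (Subgroup.zpowers (qC q)).index := by
    rw [card_mk_fibre d.q5, Subgroup.index_eq_card, show Nat.card (↥(Cq q) ⧸ _) = 1344 from hcard]
    norm_num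
  obtain ⟨K, hK⟩ := Subgroup.exists_right_complement'_of_coprime hcop
  have hdisj : ∀ k : Cq q, k ∈ Subgroup.zpowers (qC q) → k ∈ K → k = 1 := fun k h1 h2 =>
    Subgroup.disjoint_def.1 hK.disjoint h1 h2
  let J : Subgroup G := K.map (Cq q).subtype
  have hJC : J ≤ Cq q := Subgroup.map_subtype_le K
  let f : ↥J →* XQ q := (pr q).comp (Subgroup.inclusion hJC)
  have hmem : ∀ x : ↥J, Subgroup.inclusion hJC x ∈ K := fun x => by
    obtain ⟨k, hk, hkx⟩ := x.2
    rwa [show Subgroup.inclusion hJC x = k from Subtype.ext hkx.symm]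
  have hbij : Function.Bijective f := by
    refine (Nat.bijective_iff_injective_and_card f).2 ⟨?_, ?_⟩
    · rw [injective_iff_map_eq_one]
      intro x hx
      have h1 := hdisj _ ((QuotientGroup.eq_one_iff _).1 hx) (hmem x)
      exact Subtype.ext (congrArg (fun y : Cq q => (y : G)) h1)
    · rw [Subgroup.card_map_of_injective (Cq q).subtype_injective, hcard]
      have := hK.card_mul
      rw [card_mk_fibre d.q5, d.card_Cq] at this
      omega
  let e : ↥J ≃* XQ q := MulEquiv.ofBijective f hbij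
  rw [centralizer_zpowers]
  refine ⟨J, ⟨?_, hJC, ?_, ?_, ?_⟩, E.comap e.toMonoidHom, Subgroup.normal_comap _, ?_, ?_, ?_, ?_⟩
  · exact Subgroup.zpowers_le.2 (qC q).2
  · intro a ha b hb
    obtain ⟨i, rfl⟩ := ha
    exact ((mem_Cq.1 (hJC hb)).symm.zpow_left i).eq
  · rw [eq_bot_iff]
    rintro x ⟨⟨i, hi⟩, k, hk, hkx⟩
    have := hdisj k ⟨i, Subtype.ext ?_⟩ hk
    · rw [← hkx, this]; exact one_mem _
    · show ((qC q ^ i : Cq q) : G) = k
      rw [Subgroup.coe_zpow]
      exact hi.trans hkx.symm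
  · refine le_antisymm (sup_le (Subgroup.zpowers_le.2 (qC q).2) hJC) fun x hx => ?_
    have hsup := hK.sup_eq_top
    have hx' : x ∈ (Subgroup.zpowers (qC q) ⊔ K).map (Cq q).subtype := by
      rw [hsup]; exact ⟨⟨x, hx⟩, trivial, rfl⟩
    rw [Subgroup.map_sup, MonoidHom.map_zpowers] at hx'
    exact hx'
  · refine ⟨⟨⟨fun a b => Subtype.ext (e.injective ?_)⟩⟩, fun a ha => e.injective ?_⟩
    · have := hEl.1.is_comm.comm (⟨e a.1, a.2⟩ : E) ⟨e b.1, b.2⟩
      rw [Subgroup.coe_mul, Subgroup.coe_mul, map_mul, map_mul]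
      exact congrArg Subtype.val this
    · rw [map_pow, map_one]; exact hEl.2 _ ha
  · rw [← hE8]
    exact Nat.card_congr
      { toFun := fun x => ⟨e x.1, x.2⟩
        invFun := fun y => ⟨e.symm y.1, by
          show e (e.symm y.1) ∈ E
          rw [e.apply_symm_apply]; exact y.2⟩
        left_inv := fun x => Subtype.ext (e.symm_apply_apply x.1)
        right_inv := fun y => Subtype.ext (e.apply_symm_apply y.1) }
  · exact ⟨(QuotientGroup.congr _ E e
      (Subgroup.map_comap_eq_self_of_surjective e.surjective E)).trans φ⟩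
  · intro L hL
    refine hns (L.map e.toMonoidHom) (Subgroup.isComplement'_of_card_mul_and_disjoint ?_ ?_)
    · rw [Subgroup.card_map_of_injective e.injective, ← Nat.card_congr e.toEquiv, ← hL.card_mul]
      congr 1
      rw [← Subgroup.card_map_of_injective (f := e.toMonoidHom) e.injective,
        Subgroup.map_comap_eq_self_of_surjective e.surjective E]
    · rw [Subgroup.disjoint_def]
      rintro _ hxE ⟨x, hx, rfl⟩
      rw [Subgroup.disjoint_def.1 hL.disjoint (show x ∈ E.comap e.toMonoidHom from hxE) hx, map_one]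

theorem card_normalizer :
    Nat.card ↥(Subgroup.normalizer (Subgroup.zpowers q : Set G)) = 2 ^ 8 * 3 * 5 * 7 := by
  have h5 : q ^ 5 = 1 := d.q5 ▸ pow_orderOf_eq_one q
  rw [J4Facts21.card_normalizer_zpowers (d := 4) (![1, 2, 3, 4] : Fin 4 → ℕ)]
  · rw [show Nat.card (Subgroup.centralizer ({q} : Set G)) = 6720 from d.card_Cq]
    norm_num
  · exact J4Facts21.pow_fn_injective d.q5 (by decide) (by decide)
  · intro i
    obtain ⟨g, -, hg⟩ := d.exists_norm (j := (![1, 2, 3, 4] : Fin 4 → ℕ) i)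
      (by fin_cases i <;> decide) (by fin_cases i <;> decide)
    exact ⟨g, hg⟩
  · intro x hx
    obtain ⟨j, hj, e⟩ := J4Facts21.zpowers_cases (p := 5) (by norm_num) h5 hx
    have hj0 : 0 < j := by
      rcases Nat.eq_zero_or_pos j with rfl | h
      · exfalso
        rw [pow_zero, conj_eq_one_iff] at e
        have := d.q5
        rw [e, orderOf_one] at this
        omega
      · exact h
    exact ⟨⟨j - 1, by omega⟩, e.trans (by interval_cases j <;> rfl)⟩

theorem exists_twenty (hS : J4Five49.SecondHyp z) : ∃ R : Subgroup G,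
    Subgroup.zpowers q ≤ R ∧ R ≤ Subgroup.normalizer (Subgroup.zpowers q : Set G) ∧
    Nat.card ↥R = 20 ∧
    R ⊓ Subgroup.centralizer (Subgroup.zpowers q : Set G) = Subgroup.zpowers q := by
  haveI : Fact (Nat.Prime 5) := ⟨by norm_num⟩
  obtain ⟨t, ht, hn⟩ := d.quotient_facts.2.2
  obtain ⟨V, K, -, -, -, -, -, -, -, ⟨e⟩⟩ := hS t ht hn
  obtain ⟨f, g, hf, hg4, hgf⟩ := J4Five49.exists_frobenius_twenty
  let ι : J4Type67.M →* G :=
    K.subtype.comp (e.symm.toMonoidHom.comp (MulAut.conj : J4Type67.M →* MulAut J4Type67.M))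
  have hι : Function.Injective ι :=
    K.subtype_injective.comp (e.symm.injective.comp J4Type67.conj_injective_M)
  have ha : orderOf (ι f) = 5 := (orderOf_injective ι hι f).trans hf
  have hfac : (Nat.card G).factorization 5 = 1 := by
    have hpos : Nat.card G ≠ 0 := Nat.card_pos.ne'
    have h1 := (Nat.Prime.pow_dvd_iff_le_factorization (k := 1) Nat.prime_five hpos).1
      (by rw [pow_one, ← d.q5]; exact orderOf_dvd_natCard q)
    have h2 : ¬ 2 ≤ (Nat.card G).factorization 5 := fun hle => d.not_twentyfive_dvd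
      ((Nat.Prime.pow_dvd_iff_le_factorization (k := 2) Nat.prime_five hpos).2 hle)
    omega
  obtain ⟨x, hx⟩ := MulAction.exists_smul_eq G
    (Sylow.ofCard (Subgroup.zpowers (ι f)) (by rw [Nat.card_zpowers, ha, hfac, pow_one]) : Sylow 5 G)
    (Sylow.ofCard (Subgroup.zpowers q) (by rw [Nat.card_zpowers, d.q5, hfac, pow_one]))
  have he : (Subgroup.zpowers (ι f)).map (MulAut.conj x).toMonoidHom = Subgroup.zpowers q :=
    congrArg Sylow.toSubgroup hx
  set κ : J4Type67.M →* G := (MulAut.conj x).toMonoidHom.comp ι with hκ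
  have hκi : Function.Injective κ := (MulAut.conj x).injective.comp hι
  have hQ : Subgroup.zpowers (κ f) = Subgroup.zpowers q := by
    rw [← he, MonoidHom.map_zpowers]; rfl
  rw [centralizer_zpowers, ← hQ]
  set a := κ f with hadef
  set b := κ g with hbdef
  have hb4 : b ^ 4 = 1 := by rw [hbdef, ← map_pow, hg4, map_one]
  have hab : b * a * b⁻¹ = a ^ 2 := by
    rw [hadef, hbdef, ← map_inv, ← map_mul, ← map_mul, hgf, map_mul, pow_two]
  have hao : orderOf a = 5 := (orderOf_injective κ hκi f).trans hf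
  have ha5 : a ^ 5 = 1 := hao ▸ pow_orderOf_eq_one a
  have hbN : Subgroup.zpowers b ≤ Subgroup.normalizer (Subgroup.zpowers a : Set G) :=
    Subgroup.zpowers_le.2 (J4Facts21.mem_normalizer_zpowers
      (by rw [hab]; exact Subgroup.npow_mem_zpowers a 2))
  have hcq : ∀ y, y ∈ Cq q ↔ Commute y a := fun y => by
    rw [← centralizer_zpowers, ← hQ, centralizer_zpowers, mem_Cq]
  -- a power of `b` commuting with `a` is trivial
  have hfree : ∀ m < 4, Commute (b ^ m) a → m = 0 := by
    intro m hm hc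
    have h := conj_pow_iterate hab m
    rw [hc.eq, mul_inv_cancel_right] at h
    have h2 : a ^ 1 = a ^ (2 ^ m % 5) := by rw [pow_one, ← pow_eq_pow_mod (2 ^ m) ha5]; exact h
    have := pow_injOn_Iio_orderOf (x := a) (show 1 < orderOf a by omega)
      (show 2 ^ m % 5 < orderOf a by omega) h2
    interval_cases m <;> first | rfl | norm_num at this
  have hbo : orderOf b = 4 := by
    have hd : orderOf b ∣ 4 := orderOf_dvd_of_pow_eq_one hb4
    have hle := Nat.le_of_dvd (by norm_num) hd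
    by_contra hne
    have := hfree (orderOf b) (by omega) (by rw [pow_orderOf_eq_one]; exact Commute.one_left a)
    have := orderOf_pos b
    omega
  have hsetR := Subgroup.coe_mul_of_right_le_normalizer_left _ _ hbN
  have hdj : ∀ y ∈ Subgroup.zpowers b, Commute y a → y = 1 := by
    intro y hy hc
    obtain ⟨m, hm, rfl⟩ := J4Facts21.zpowers_cases (p := 4) (by norm_num) hb4 hy
    rw [hfree m hm hc, pow_zero]
  refine ⟨Subgroup.zpowers a ⊔ Subgroup.zpowers b, le_sup_left,
    sup_le Subgroup.le_normalizer hbN, ?_, ?_⟩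
  · have hmul : Function.Bijective (fun p : ↥(Subgroup.zpowers a) × ↥(Subgroup.zpowers b) =>
        (⟨(p.1 : G) * p.2, mul_mem (Subgroup.mem_sup_left p.1.2) (Subgroup.mem_sup_right p.2.2)⟩ :
          ↥(Subgroup.zpowers a ⊔ Subgroup.zpowers b))) := by
      constructor
      · rintro ⟨u, v⟩ ⟨u', v'⟩ h
        have h' : (u : G) * v = u' * v' := congrArg Subtype.val h
        have hv : (v : G) * (v' : G)⁻¹ = 1 := by
          refine hdj _ (mul_mem v.2 (inv_mem v'.2)) ?_
          rw [show (v : G) * (v' : G)⁻¹ = (u : G)⁻¹ * u' by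
            rw [eq_inv_mul_iff_mul_eq, ← mul_assoc, h', mul_inv_cancel_right]]
          obtain ⟨i, hi⟩ := mul_mem (inv_mem u.2) u'.2
          rw [← hi]
          exact (Commute.refl a).zpow_left i
        have hvv : v = v' := Subtype.ext (mul_inv_eq_one.1 hv)
        subst hvv
        exact Prod.ext (Subtype.ext (mul_right_cancel h')) rfl
      · rintro ⟨y, hy⟩
        rw [← SetLike.mem_coe, hsetR] at hy
        obtain ⟨u, hu, v, hv, rfl⟩ := hy
        exact ⟨(⟨u, hu⟩, ⟨v, hv⟩), rfl⟩
    rw [← Nat.card_congr (Equiv.ofBijective _ hmul), Nat.card_prod, Nat.card_zpowers,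
      Nat.card_zpowers, hao, hbo]
  · refine le_antisymm ?_ (le_inf le_sup_left (Subgroup.zpowers_le.2 ((hcq a).2 (Commute.refl a))))
    rintro y ⟨hy, hyc⟩
    obtain ⟨u, hu, v, hv, rfl⟩ := hsetR.subset hy
    have huc : Commute u a := by
      obtain ⟨i, rfl⟩ := hu
      exact (Commute.refl a).zpow_left i
    have hvc : Commute v a := by
      have := huc.inv_left.mul_left ((hcq _).1 hyc)
      rwa [inv_mul_cancel_left] at this
    rw [hdj v hv hvc]
    simpa using hu

/-- The local structure at the prime five. -/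
theorem local_structure (hS : J4Five49.SecondHyp z) {Q : Subgroup G} (hQ : Subgroup.zpowers q = Q) :
    ¬ (25 ∣ Nat.card G) ∧
    (∃ J : Subgroup G, Cfsg.IsInternalDirectProduct Q J (Subgroup.centralizer (Q : Set G)) ∧
      ∃ (E : Subgroup ↥J) (_ : E.Normal), Cfsg.IsElementaryAbelian 2 E ∧ Nat.card ↥E = 8 ∧
        Nonempty (↥J ⧸ E ≃* Matrix.SpecialLinearGroup (Fin 3) (ZMod 2)) ∧
        ∀ K : Subgroup ↥J, ¬ E.IsComplement' K) ∧
    (∃ R : Subgroup G, Q ≤ R ∧ R ≤ Subgroup.normalizer (Q : Set G) ∧ Nat.card ↥R = 20 ∧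
      R ⊓ Subgroup.centralizer (Q : Set G) = Q) ∧
    Nat.card ↥(Subgroup.normalizer (Q : Set G)) = 2 ^ 8 * 3 * 5 * 7 := by
  subst hQ
  exact ⟨d.not_twentyfive_dvd, d.exists_complement, d.exists_twenty hS, d.card_normalizer⟩

end HData

end CfsgLib.J4Five21
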