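import Cfsg.Agent.J4Five21.Setup
import Cfsg.Agent.J4Five21.Shape

/-!
The local structure at an element of order five in a group of Janko-four type, from the two
structure statements on the elementary subgroups of order `2 ^ 11` and the second class of
involutions.
-/

set_option autoImplicit false

universe u

namespace CfsgLib.J4Five21

variable {G : Type u} [Group G] [Finite G]

/-- The conclusion, given the statements about the second class and the orbits. -/
theorem five_local {z : G} (hJ : Cfsg.IsOfJankoFourTypeAt z) (hS : J4Five49.SecondHyp z)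
    (hO : J4Five49.OrbitHyp z) (Q : Subgroup G) (hQ : Nat.card ↥Q = 5)
    (hQz : Q ≤ Subgroup.centralizer ({z} : Set G)) :
    ¬ (25 ∣ Nat.card G) ∧
    (∃ J : Subgroup G, Cfsg.IsInternalDirectProduct Q J (Subgroup.centralizer (Q : Set G)) ∧
      ∃ (E : Subgroup ↥J) (_ : E.Normal), Cfsg.IsElementaryAbelian 2 E ∧ Nat.card ↥E = 8 ∧
        Nonempty (↥J ⧸ E ≃* Matrix.SpecialLinearGroup (Fin 3) (ZMod 2)) ∧
        ∀ K : Subgroup ↥J, ¬ E.IsComplement' K) ∧
    (∃ R : Subgroup G, Q ≤ R ∧ R ≤ Subgroup.normalizer (Q : Set G) ∧ Nat.card ↥R = 20 ∧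
      R ⊓ Subgroup.centralizer (Q : Set G) = Q) ∧
    Nat.card ↥(Subgroup.normalizer (Q : Set G)) = 2 ^ 8 * 3 * 5 * 7 := by
  obtain ⟨q, hq, ⟨d⟩⟩ := exists_hdata hJ hS hO Q hQ hQz
  exact d.local_structure hS hq

end CfsgLib.J4Five21
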